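import Cfsg.Agent.Lib.SQ.Basic
import Cfsg.Agent.Lib.GD.Main
import Cfsg.Agent.Lib.Wal.Walter

set_option autoImplicit false

namespace CfsgLib.SQ

open Subgroup Cfsg CfsgLib.FT.BGN CfsgLib.GW
open CfsgLib.FT.U4 (mem_cent1 mem_cent1' mem_cent mem_cent1_comm self_mem_cent1 cent1_conj
  orderOf_conj cent_le_cent1)

universe u

variable {G : Type u} [Group G] [Finite G]

/-- An element of odd prime order with centralizer of odd order. -/
theorem exists_free (hX : GD.Dih G) (hO : Od (⊤ : Subgroup G) = ⊥) (h2 : ¬ IsPGroup 2 G) :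
    ∃ x : G, (orderOf x).Prime ∧ Odd (orderOf x) ∧ ∀ u : G, orderOf u = 2 → u ∉ 𝐂[x] := by
  sorry

theorem Min.not_dih (h : Min G) (hX : GD.Dih G) : False := by
  sorry

theorem Min.not_ab (h : Min G) (hX : H1.AbTwo G) : False := by
  sorry

theorem Min.not_sd (h : Min G) {S : Subgroup G} {n : ℕ} {a b : G} (hs : SD S n a b) : False := by
  sorry

end CfsgLib.SQ
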