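import Cfsg.Agent.Lib.SQ.P3
import Cfsg.Agent.Lib.SQ.End
import Cfsg.Agent.Lib.SQ.Solv

set_option autoImplicit false

namespace CfsgLib.SQ

open Subgroup Cfsg

universe u

theorem Min.false {G : Type u} [Group G] [Finite G] (h : Min G) : False := by
  by_cases hab : H1.AbTwo G
  · exact h.not_ab hab
  obtain ⟨n, hn⟩ := h.ctx hab
  rcases hn.final with hd | ⟨S, a, b, hs⟩
  · exact h.not_dih hd
  · exact h.not_sd hs

theorem solvable {G : Type u} [Group G] [Finite G] (h : Hyp G) : Group.IsSolvable G :=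
  solvable_of (fun _ _ _ h => h.false) G h

end CfsgLib.SQ
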