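import Cfsg.Agent.Lib.SQ.P2
import Cfsg.Agent.Lib.GD.PiHom

set_option autoImplicit false

namespace CfsgLib.SQ

open Subgroup Cfsg CfsgLib.FT.BGN CfsgLib.GW
open CfsgLib.FT.U4 (mem_cent1 mem_cent1' mem_cent mem_cent1_comm self_mem_cent1 cent1_conj
  orderOf_conj cent_le_cent1)

universe u

variable {G : Type*} [Group G] [Finite G] {S : Subgroup G} {n : ℕ} {a b : G}

theorem Ctx.d0_cent (h : Ctx G n) (hs : ST S n a b) {d : G} (hd : d ∈ D0 S a b) :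
    d ∈ 𝐂(S) := by
  sorry

/-- No fusion in the centre of `S`. -/
theorem Ctx.nf (h : Ctx G n) (hS : Sy S) {x g : G} (hx : x ∈ S) (hc : x ∈ 𝐂(S))
    (hy : g * x * g⁻¹ ∈ S) (hc' : g * x * g⁻¹ ∈ 𝐂(S)) : g * x * g⁻¹ = x := by
  sorry

theorem Ctx.final (h : Ctx G n) : GD.Dih G ∨ ∃ (S : Subgroup G) (a b : G), SD S n a b := by
  sorry

end CfsgLib.SQ
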